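import Cfsg.Agent.H343.RG.Res

/-!
# The primitive part of a cyclic linear group, averaging (helper343, for S5714, task RG-L14)

* `ZZ y e` : the elements of `⟨y⟩` all of whose primes `r` satisfy `ord_r(q) = e`;
* `fx Z`, `nz Z`, `co Z` : fixed vectors, norm, kernel of the norm; `Frm` : orthogonality;
* `exists_compl` : invariant complements.
-/

set_option autoImplicit false
set_option linter.unusedSectionVars false
set_option linter.unusedVariables false

namespace Cfsg.Agent.H343.RG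

open Module Cfsg.Agent.H847.Bs Cfsg.Agent.H50.RG Cfsg.Agent.LieClassical.OrthCore
open Cfsg.Agent.H440.Bs (perp mem_perp mem_perp' finrank_perp)

section Grp

variable {F V : Type} [Field F] [Finite F] [AddCommGroup V] [Module F V] [Module.Finite F V]

theorem finite_gl (F V : Type) [Field F] [Finite F] [AddCommGroup V] [Module F V] [Module.Finite F V] :
    Finite (V ≃ₗ[F] V) := by
  have : Finite V := Module.finite_of_finite F
  exact Finite.of_injective (fun g : V ≃ₗ[F] V => (g : V → V)) DFunLike.coe_injective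

/-- the primitive part of `⟨y⟩` -/
def ZZ (y : V ≃ₗ[F] V) (e : ℕ) : Subgroup (V ≃ₗ[F] V) where
  carrier := {z | z ∈ Subgroup.zpowers y ∧ ∀ r : ℕ, r.Prime → r ∣ orderOf z →
    orderOf ((Nat.card F : ℕ) : ZMod r) = e}
  mul_mem' := by
    rintro z w ⟨hz, hz'⟩ ⟨hw, hw'⟩
    refine ⟨mul_mem hz hw, fun r hr hd => ?_⟩
    have hc : Commute z w := by
      obtain ⟨i, rfl⟩ := hz
      obtain ⟨j, rfl⟩ := hw
      exact (Commute.refl y).zpow_zpow i j
    have h1 := hd.trans (hc.orderOf_mul_dvd_lcm.trans (Nat.lcm_dvd_mul _ _))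
    rcases hr.dvd_mul.1 h1 with h | h
    · exact hz' r hr h
    · exact hw' r hr h
  one_mem' := ⟨one_mem _, fun r hr hd => by
    rw [orderOf_one] at hd
    exact absurd (Nat.dvd_one.1 hd) hr.one_lt.ne'⟩
  inv_mem' := by
    rintro z ⟨hz, hz'⟩
    exact ⟨inv_mem hz, fun r hr hd => hz' r hr (by rwa [orderOf_inv] at hd)⟩

theorem mem_ZZ {y z : V ≃ₗ[F] V} {e : ℕ} : z ∈ ZZ y e ↔ z ∈ Subgroup.zpowers y ∧ ∀ r : ℕ, r.Prime → r ∣ orderOf z →
    orderOf ((Nat.card F : ℕ) : ZMod r) = e := Iff.rfl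

theorem exists_pow {y z : V ≃ₗ[F] V} (h : z ∈ Subgroup.zpowers y) : ∃ k : ℕ, y ^ k = z := by
  have := finite_gl F V
  exact (isOfFinOrder_of_finite y).mem_powers_iff_mem_zpowers.2 h

theorem card_ZZ {y : V ≃ₗ[F] V} {e M : ℕ} {A : Submodule F V} (hM : 2 ≤ M) (h : BigOn e M y A) :
    M ≤ Nat.card (ZZ y e) ∧ ∃ w ∈ ZZ y e, ∃ a ∈ A, w a ≠ a := by
  have := finite_gl F V
  obtain ⟨m, hMm, hm, hk⟩ := h
  have hN0 : 0 < orderOf y := orderOf_pos y
  have hmN : m ∣ orderOf y := hk _ fun a _ => by rw [pow_orderOf_eq_one]; rfl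
  have hm0 : 0 < m := by omega
  constructor
  · set w := y ^ (orderOf y / m) with hw
    have h0 : orderOf y / m ≠ 0 := (Nat.div_pos (Nat.le_of_dvd hN0 hmN) hm0).ne'
    have how : orderOf w = m := by
      rw [hw, orderOf_pow_of_dvd h0 (Nat.div_dvd_of_dvd hmN), Nat.div_div_self hmN hN0.ne']
    have hwZ : w ∈ ZZ y e := ⟨Subgroup.npow_mem_zpowers y _, fun r hr hd => hm r hr (how ▸ hd)⟩
    have h1 : Subgroup.zpowers w ≤ ZZ y e := by rwa [Subgroup.zpowers_le]
    calc M ≤ m := hMm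
      _ = Nat.card (Subgroup.zpowers w) := by rw [Nat.card_zpowers, how]
      _ ≤ Nat.card (ZZ y e) := Subgroup.card_le_of_le h1
  · obtain ⟨r, hr, hrm⟩ := Nat.exists_prime_and_dvd (show m ≠ 1 by omega)
    obtain ⟨k, N', hN', hN⟩ := Nat.exists_eq_pow_mul_and_not_dvd hN0.ne' r hr.ne_one
    have hN'0 : N' ≠ 0 := by rintro rfl; exact hN' (dvd_zero _)
    set w := y ^ N' with hw
    have how : orderOf w = r ^ k := by
      rw [hw, orderOf_pow_of_dvd hN'0 (hN ▸ Dvd.intro_left _ rfl), hN, Nat.mul_div_cancel _ (Nat.pos_of_ne_zero hN'0)]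
    refine ⟨w, ⟨Subgroup.npow_mem_zpowers y _, fun s hs hd => ?_⟩, ?_⟩
    · rw [how] at hd
      rw [(Nat.prime_dvd_prime_iff_eq hs hr).1 (hs.dvd_of_dvd_pow hd)]
      exact hm r hr hrm
    · by_contra hcon
      push Not at hcon
      exact hN' (hrm.trans (hk N' hcon))

/-- `|Z|` is prime to the characteristic -/
theorem card_ne_zero {y : V ≃ₗ[F] V} {e : ℕ} (he : 2 ≤ e) : ((Nat.card (ZZ y e) : ℕ) : F) ≠ 0 := by
  have := finite_gl F V
  have : Fintype F := Fintype.ofFinite F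
  obtain ⟨p, hp⟩ := CharP.exists F
  intro h0
  have hd := (CharP.cast_eq_zero_iff F p _).1 h0
  have hpp : p.Prime := (CharP.char_is_prime_or_zero F p).resolve_right (CharP.char_ne_zero_of_finite F p)
  have := Fact.mk hpp
  obtain ⟨z, hz⟩ := exists_prime_orderOf_dvd_card' (G := ZZ y e) p hd
  have h1 := z.2.2 p hpp (by rw [Subgroup.orderOf_coe, hz])
  have h2 : ((Nat.card F : ℕ) : ZMod p) = 0 := by
    rw [ZMod.natCast_eq_zero_iff, Nat.card_eq_fintype_card]
    exact (CharP.cast_eq_zero_iff F p _).1 (Nat.cast_card_eq_zero F)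
  rw [h2] at h1
  have h3 : orderOf (0 : ZMod p) = 0 := by
    rw [orderOf_eq_zero_iff']
    intro n hn
    rw [zero_pow hn.ne']
    exact zero_ne_one
  omega

end Grp

section Avg

variable {F V : Type} [Field F] [Finite F] [AddCommGroup V] [Module F V] [Module.Finite F V]
  (Z : Subgroup (V ≃ₗ[F] V))

/-- the fixed vectors -/
def fx : Submodule F V where
  carrier := {v | ∀ z ∈ Z, z v = v}
  add_mem' {v w} hv hw z hz := by rw [map_add, hv z hz, hw z hz]
  zero_mem' z _ := map_zero z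
  smul_mem' c v hv z hz := by rw [map_smul, hv z hz]

theorem mem_fx {v : V} : v ∈ fx Z ↔ ∀ z ∈ Z, z v = v := Iff.rfl

/-- the norm -/
noncomputable def nz : V →ₗ[F] V :=
  haveI := finite_gl F V
  haveI : Fintype Z := Fintype.ofFinite Z
  ∑ z : Z, ((z : V ≃ₗ[F] V) : V →ₗ[F] V)

theorem nz_eq [inst : Fintype Z] (v : V) : nz Z v = ∑ z : Z, (z : V ≃ₗ[F] V) v := by
  have := finite_gl F V
  have h : inst = Fintype.ofFinite Z := Subsingleton.elim _ _
  subst h
  exact LinearMap.sum_apply _ _ _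

theorem nz_fix {v : V} (hv : v ∈ fx Z) : nz Z v = ((Nat.card Z : ℕ) : F) • v := by
  have := finite_gl F V
  have : Fintype Z := Fintype.ofFinite Z
  rw [nz_eq, Finset.sum_congr rfl fun (z : Z) _ => (show (z : V ≃ₗ[F] V) v = v from
    hv z z.2), Finset.sum_const, Finset.card_univ, Nat.cast_smul_eq_nsmul, Nat.card_eq_fintype_card]

theorem nz_mem_fx (v : V) : nz Z v ∈ fx Z := by
  have := finite_gl F V
  have : Fintype Z := Fintype.ofFinite Z
  intro w hw
  rw [nz_eq, map_sum]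
  exact Fintype.sum_equiv (Equiv.mulLeft (⟨w, hw⟩ : Z)) _ _ fun z => rfl

theorem nz_apply (z : V ≃ₗ[F] V) (hz : z ∈ Z) (v : V) : nz Z (z v) = nz Z v := by
  have := finite_gl F V
  have : Fintype Z := Fintype.ofFinite Z
  rw [nz_eq, nz_eq]
  exact Fintype.sum_equiv (Equiv.mulRight (⟨z, hz⟩ : Z)) _ _ fun w => rfl

/-- the norm preserves invariant subspaces -/
theorem nz_mem {W : Submodule F V} (hW : ∀ z ∈ Z, Inv z W) {v : V} (hv : v ∈ W) : nz Z v ∈ W := by
  have := finite_gl F V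
  have : Fintype Z := Fintype.ofFinite Z
  rw [nz_eq]
  exact sum_mem fun z _ => hW z z.2 v hv

/-- the norm is `|Z|` modulo a submodule modulo which `v` is fixed -/
theorem nz_sub_mem {W : Submodule F V} {v : V} (hv : ∀ z ∈ Z, z v - v ∈ W) :
    nz Z v - ((Nat.card Z : ℕ) : F) • v ∈ W := by
  have := finite_gl F V
  have : Fintype Z := Fintype.ofFinite Z
  have h1 : nz Z v - ((Nat.card Z : ℕ) : F) • v = ∑ z : Z, ((z : V ≃ₗ[F] V) v - v) := by
    rw [nz_eq, Finset.sum_sub_distrib, Finset.sum_const, Finset.card_univ, Nat.cast_smul_eq_nsmul,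
      Nat.card_eq_fintype_card]
  rw [h1]
  exact sum_mem fun z _ => hv z z.2

/-- an element commuting with `Z` commutes with the norm -/
theorem nz_comm {g : V ≃ₗ[F] V} (hg : ∀ z ∈ Z, ∀ v, z (g v) = g (z v)) (v : V) : nz Z (g v) = g (nz Z v) := by
  have := finite_gl F V
  have : Fintype Z := Fintype.ofFinite Z
  rw [nz_eq, nz_eq, map_sum]
  exact Finset.sum_congr rfl fun z _ => hg z z.2 v

theorem compl (hc : ((Nat.card Z : ℕ) : F) ≠ 0) : IsCompl (fx Z) (LinearMap.ker (nz Z)) := by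
  constructor
  · rw [Submodule.disjoint_def]
    intro v hv hv'
    rw [LinearMap.mem_ker, nz_fix Z hv] at hv'
    exact (smul_eq_zero.1 hv').resolve_left hc
  · rw [codisjoint_iff, eq_top_iff]
    rintro v -
    have h1 : v = ((Nat.card Z : ℕ) : F)⁻¹ • nz Z v + (v - ((Nat.card Z : ℕ) : F)⁻¹ • nz Z v) := by abel
    rw [h1]
    refine Submodule.add_mem_sup (Submodule.smul_mem _ _ (nz_mem_fx Z v)) ?_
    rw [LinearMap.mem_ker, map_sub, map_smul, nz_fix Z (nz_mem_fx Z v), smul_smul, inv_mul_cancel₀ hc, one_smul,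
      sub_self]

/-- fixed vectors and the kernel of the norm are orthogonal -/
theorem orth {Φ : Frm F V} (hZ : Z ≤ Φ.Iso) (hc : ((Nat.card Z : ℕ) : F) ≠ 0) {v w : V} (hv : v ∈ fx Z)
    (hw : nz Z w = 0) : Φ.B v w = 0 := by
  classical
  have := finite_gl F V
  have : Fintype Z := Fintype.ofFinite Z
  have hsum : ∀ (s : Finset Z) (f : Z → V), Φ.B v (∑ z ∈ s, f z) = ∑ z ∈ s, Φ.B v (f z) := by
    intro s f
    induction s using Finset.induction_on with
    | empty => rw [Finset.sum_empty, Finset.sum_empty]; exact Cfsg.Agent.H440.Bs.B_zero_right Φ v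
    | insert a s ha ih => rw [Finset.sum_insert ha, Finset.sum_insert ha, Φ.add_right, ih]
  have h1 : Φ.B v (nz Z w) = ((Nat.card Z : ℕ) : F) * Φ.B v w := by
    rw [nz_eq, hsum, Finset.sum_congr rfl fun (z : Z) _ => (show Φ.B v ((z : V ≃ₗ[F] V) w) = Φ.B v w from by
      conv_lhs => rw [← hv z z.2]
      exact (hZ z.2).1 v w), Finset.sum_const, Finset.card_univ, nsmul_eq_mul, Nat.card_eq_fintype_card]
  rw [hw, Cfsg.Agent.H440.Bs.B_zero_right] at h1
  exact (mul_eq_zero.1 h1.symm).resolve_left hc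

/-- **Invariant complements.** -/
theorem exists_compl (hc : ((Nat.card Z : ℕ) : F) ≠ 0) {A D : Submodule F V} (hA : ∀ z ∈ Z, Inv z A)
    (hD : ∀ z ∈ Z, Inv z D) (hAD : A ≤ D) :
    ∃ A' ≤ D, (∀ z ∈ Z, Inv z A') ∧ Disjoint A A' ∧ A ⊔ A' = D := by
  classical
  have := finite_gl F V
  have : Fintype Z := Fintype.ofFinite Z
  obtain ⟨g, hg⟩ := LinearMap.exists_leftInverse_of_injective A.subtype A.ker_subtype
  set f : V →ₗ[F] V := A.subtype ∘ₗ g with hf
  have hfA : ∀ v, f v ∈ A := fun v => (g v).2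
  have hfa : ∀ a ∈ A, f a = a := fun a ha => congrArg Subtype.val (LinearMap.congr_fun hg ⟨a, ha⟩)
  set P : V →ₗ[F] V := ∑ z : Z, ((z : V ≃ₗ[F] V) : V →ₗ[F] V) ∘ₗ f ∘ₗ (((z⁻¹ : Z) : V ≃ₗ[F] V) : V →ₗ[F] V) with hP
  have hPapp : ∀ v, P v = ∑ z : Z, (z : V ≃ₗ[F] V) (f (((z⁻¹ : Z) : V ≃ₗ[F] V) v)) := fun v => by
    rw [hP, LinearMap.sum_apply]
    rfl
  have hPA : ∀ v, P v ∈ A := fun v => by
    rw [hPapp]
    exact sum_mem fun z _ => hA z z.2 _ (hfA _)
  have hPa : ∀ a ∈ A, P a = ((Nat.card Z : ℕ) : F) • a := by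
    intro a ha
    rw [hPapp, Finset.sum_congr rfl fun (z : Z) _ => (show (z : V ≃ₗ[F] V) (f (((z⁻¹ : Z) : V ≃ₗ[F] V) a)) = a from by
      rw [hfa _ (hA _ (z⁻¹).2 a ha)]
      show (z : V ≃ₗ[F] V) ((z : V ≃ₗ[F] V).symm a) = a
      exact LinearEquiv.apply_symm_apply _ _), Finset.sum_const, Finset.card_univ, Nat.cast_smul_eq_nsmul,
      Nat.card_eq_fintype_card]
  have hPz : ∀ w ∈ Z, ∀ v, P (w v) = w (P v) := by
    intro w hw v
    rw [hPapp, hPapp, map_sum]
    refine Fintype.sum_equiv (Equiv.mulLeft (⟨w, hw⟩ : Z)⁻¹) _ _ fun z => ?_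
    show (z : V ≃ₗ[F] V) (f (((z⁻¹ : Z) : V ≃ₗ[F] V) (w v))) =
      w ((((⟨w, hw⟩ : Z)⁻¹ * z : Z) : V ≃ₗ[F] V) (f (((((⟨w, hw⟩ : Z)⁻¹ * z)⁻¹ : Z) : V ≃ₗ[F] V) v)))
    rw [mul_inv_rev, inv_inv]
    show _ = w (w⁻¹ ((z : V ≃ₗ[F] V) (f (((z⁻¹ : Z) : V ≃ₗ[F] V) (w v)))))
    exact (LinearEquiv.apply_symm_apply w _).symm
  refine ⟨D ⊓ LinearMap.ker P, inf_le_left, ?_, ?_, ?_⟩
  · intro z hz v hv
    refine ⟨hD z hz v hv.1, ?_⟩
    show P (z v) = 0
    have h1 : P v = 0 := hv.2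
    rw [hPz z hz, h1, map_zero]
  · rw [Submodule.disjoint_def]
    intro a ha ha'
    have h1 : P a = 0 := ha'.2
    rw [hPa a ha] at h1
    exact (smul_eq_zero.1 h1).resolve_left hc
  · apply le_antisymm
    · exact sup_le hAD inf_le_left
    · intro d hd
      have h1 : d = ((Nat.card Z : ℕ) : F)⁻¹ • P d + (d - ((Nat.card Z : ℕ) : F)⁻¹ • P d) := by abel
      have h2 : ((Nat.card Z : ℕ) : F)⁻¹ • P d ∈ A := A.smul_mem _ (hPA d)
      rw [h1]
      refine Submodule.add_mem_sup h2 ⟨D.sub_mem hd (hAD h2), ?_⟩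
      show P (d - ((Nat.card Z : ℕ) : F)⁻¹ • P d) = 0
      rw [map_sub, map_smul, hPa _ (hPA d), smul_smul, inv_mul_cancel₀ hc, one_smul, sub_self]

end Avg

end Cfsg.Agent.H343.RG
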