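import Cfsg.Agent.H343.RG.Avg

/-!
# RG-L14: the primary decomposition (helper343, for S5714)
-/

set_option autoImplicit false
set_option linter.unusedSectionVars false
set_option linter.unusedVariables false

namespace Cfsg.Agent.H343.RG

open Module Cfsg.Agent.H847.Bs Cfsg.Agent.H50.RG Cfsg.Agent.LieClassical.OrthCore
open Cfsg.Agent.H440.Bs (perp mem_perp mem_perp' finrank_perp)

variable {F V : Type} [Field F] [Finite F] [AddCommGroup V] [Module F V] [Module.Finite F V]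

theorem s_hyp {Φ : Frm F V} {e : ℕ} (hΦ : Cls Φ e) : (∀ a, Φ.s a = a) ∧ Odd e ∨
    (∃ t : ℕ, Nat.card F = t ^ 2 ∧ (∀ a, Φ.s a = a ^ t)) ∧ Even e := by
  rcases hΦ.2.2 with ⟨h, he⟩ | ⟨r, h, he⟩ | ⟨Q, rfl, he⟩
  · exact Or.inl ⟨h.s, he⟩
  · exact Or.inr ⟨⟨r, h.card, h.s⟩, he⟩
  · exact Or.inl ⟨fun a => rfl, he⟩

/-- the form vanishes on `B` if it vanishes on `A × B` and `y` is irreducible of the right parity on `B / A` -/
theorem quot_zero (h10 : L10) {Φ : Frm F V} {e r : ℕ} (hΦ : Cls Φ e) {y : V ≃ₗ[F] V} (hy : y ∈ Φ.Iso)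
    {A B : Submodule F V} (hA : Inv y A) (hB : Inv y B) (hAB : ∀ a ∈ A, ∀ b ∈ B, Φ.B a b = 0)
    (hi : Irr (qs hA hB) ⊤) (hr : r.Prime) (hd : r ∣ orderOf (qs hA hB))
    (he : orderOf ((Nat.card F : ℕ) : ZMod r) = e) : ∀ x ∈ B, ∀ w ∈ B, Φ.B x w = 0 := by
  have hex : ∀ x : QQ A B, ∃ b : B, (Submodule.Quotient.mk b : QQ A B) = x := Submodule.Quotient.mk_surjective _
  choose o ho using hex
  have hl : ∀ b b' : B, (Submodule.Quotient.mk b : QQ A B) = Submodule.Quotient.mk b' →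
      ∀ c : B, Φ.B (b : V) c = Φ.B (b' : V) c := by
    intro b b' h c
    rw [Submodule.Quotient.eq] at h
    have h1 : (b : V) - b' ∈ A := h
    have h2 := hAB _ h1 c c.2
    have h3 : (b : V) = ((b : V) - b') + b' := by abel
    rw [h3, Φ.add_left, h2, zero_add]
  have hr' : ∀ b b' : B, (Submodule.Quotient.mk b : QQ A B) = Submodule.Quotient.mk b' →
      ∀ c : B, Φ.B (c : V) b = Φ.B (c : V) b' := by
    intro b b' h c
    rw [Submodule.Quotient.eq] at h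
    have h1 : (b : V) - b' ∈ A := h
    have h2 := Φ.refl _ _ (hAB _ h1 c c.2)
    have h3 : (b : V) = ((b : V) - b') + b' := by abel
    rw [h3, Φ.add_right, h2, zero_add]
  have key := h10 F (QQ A B) e r (qs hA hB) hΦ.2.1 hi hr hd he Φ.s (s_hyp hΦ)
    (fun x w => Φ.B (o x : V) (o w : V)) ?_ ?_ ?_ ?_ ?_
  · intro x hx w hw
    have h1 : Φ.B (o (Submodule.Quotient.mk ⟨x, hx⟩) : V) (o (Submodule.Quotient.mk ⟨w, hw⟩) : V) = 0 := key _ _
    rw [hl _ _ (ho _), hr' _ _ (ho _)] at h1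
    exact h1
  · intro x x' w
    show Φ.B (o (x + x') : V) (o w : V) = Φ.B (o x : V) (o w : V) + Φ.B (o x' : V) (o w : V)
    rw [← Φ.add_left]
    exact hl (o (x + x')) (o x + o x') (by rw [ho, Submodule.Quotient.mk_add, ho, ho]) _
  · intro x x' w
    show Φ.B (o x : V) (o (x' + w) : V) = Φ.B (o x : V) (o x' : V) + Φ.B (o x : V) (o w : V)
    rw [← Φ.add_right]
    exact hr' (o (x' + w)) (o x' + o w) (by rw [ho, Submodule.Quotient.mk_add, ho, ho]) _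
  · intro a x w
    show Φ.B (o (a • x) : V) (o w : V) = a * Φ.B (o x : V) (o w : V)
    rw [← Φ.smul_left]
    exact hl (o (a • x)) (a • o x) (by rw [ho, Submodule.Quotient.mk_smul, ho]) _
  · intro a x w
    show Φ.B (o x : V) (o (a • w) : V) = Φ.s a * Φ.B (o x : V) (o w : V)
    rw [← Φ.smul_right]
    exact hr' (o (a • w)) (a • o w) (by rw [ho, Submodule.Quotient.mk_smul, ho]) _
  · intro x w
    show Φ.B (o (qs hA hB x) : V) (o (qs hA hB w) : V) = Φ.B (o x : V) (o w : V)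
    have h1 : ∀ x : QQ A B, (Submodule.Quotient.mk (o (qs hA hB x)) : QQ A B) =
        Submodule.Quotient.mk (rs y B hB (o x)) := fun x => by
      rw [ho, ← qs_mk hA hB, ho]
    rw [← hy.1 (o x : V) (o w : V), hl _ _ (h1 x), hr' _ _ (h1 w)]
    rfl

/-- the form vanishes on `Y` if `z` is irreducible of the right parity on `Y` -/
theorem self_zero (h10 : L10) {Φ : Frm F V} {e r : ℕ} (hΦ : Cls Φ e) {z : V ≃ₗ[F] V} (hz : z ∈ Φ.Iso)
    {Y : Submodule F V} (hi : Irr z Y) (hr : r.Prime) (hd : r ∣ orderOf (rs z Y hi.inv))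
    (he : orderOf ((Nat.card F : ℕ) : ZMod r) = e) : ∀ x ∈ Y, ∀ w ∈ Y, Φ.B x w = 0 := by
  intro x hx w hw
  exact h10 F Y e r (rs z Y hi.inv) hΦ.2.1 (irr_rs hi) hr hd he Φ.s (s_hyp hΦ)
    (fun x w => Φ.B (x : V) (w : V)) (fun _ _ _ => Φ.add_left _ _ _) (fun _ _ _ => Φ.add_right _ _ _)
    (fun _ _ _ => Φ.smul_left _ _ _) (fun _ _ _ => Φ.smul_right _ _ _) (fun _ _ => hz.1 _ _) ⟨x, hx⟩ ⟨w, hw⟩

/-- elements of `ZZ` preserve `y`-invariant subspaces -/
theorem inv_of_mem {y z : V ≃ₗ[F] V} {e : ℕ} (hz : z ∈ ZZ y e) {W : Submodule F V} (hW : Inv y W) : Inv z W := by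
  obtain ⟨k, rfl⟩ := exists_pow hz.1
  exact Inv.pow hW k

theorem comm_of_mem {y z : V ≃ₗ[F] V} {e : ℕ} (hz : z ∈ ZZ y e) (v : V) : z (y v) = y (z v) := by
  obtain ⟨k, rfl⟩ := exists_pow hz.1
  have h : y ^ k * y = y * y ^ k := ((Commute.refl y).pow_left k).eq
  exact LinearEquiv.congr_fun h v

theorem inv_fx {y : V ≃ₗ[F] V} {e : ℕ} : Inv y (fx (ZZ y e)) := by
  intro v hv z hz
  rw [comm_of_mem hz, hv z hz]

theorem inv_ker {y : V ≃ₗ[F] V} {e : ℕ} : Inv y (LinearMap.ker (nz (ZZ y e))) := by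
  intro v hv
  rw [LinearMap.mem_ker] at hv ⊢
  rw [nz_comm _ (fun z hz v => comm_of_mem hz v), hv, map_zero]

/-- `A ≤ D` -/
theorem le_ker {y : V ≃ₗ[F] V} {e M : ℕ} {A : Submodule F V} (hM : 2 ≤ M) (h : BigOn e M y A) (hi : Irr y A) :
    A ≤ LinearMap.ker (nz (ZZ y e)) := by
  obtain ⟨-, w, hw, a, ha, hwa⟩ := card_ZZ hM h
  have h1 : A ⊓ fx (ZZ y e) = ⊥ := by
    rcases hi.min (A ⊓ fx (ZZ y e)) inf_le_left (fun v hv => ⟨hi.inv v hv.1, inv_fx v hv.2⟩) with h1 | h1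
    · exact h1
    · exfalso
      have h2 : a ∈ A ⊓ fx (ZZ y e) := by rw [h1]; exact ha
      exact hwa (h2.2 w hw)
  intro v hv
  have h2 : nz (ZZ y e) v ∈ A ⊓ fx (ZZ y e) :=
    ⟨nz_mem _ (fun z hz => inv_of_mem hz hi.inv) hv, nz_mem_fx _ v⟩
  rw [h1, Submodule.mem_bot] at h2
  exact h2

theorem inv_perp {Φ : Frm F V} {z : V ≃ₗ[F] V} (hz : z ∈ Φ.Iso) {W : Submodule F V} (hW : Inv z W) :
    Inv z (perp Φ W) := by
  intro v hv w hw
  obtain ⟨w', rfl⟩ := z.surjective w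
  rw [hz.1]
  exact hv w' (mem_of_apply_mem hW hw)

/-- the main step: `D ⊓ A^⊥ = A` -/
theorem main_step (h10 : L10) (h24 : L24) {Φ : Frm F V} {e M : ℕ} (hΦ : Cls Φ e) (hM : 2 ≤ M) {y : V ≃ₗ[F] V}
    (hy : y ∈ Φ.Iso) {A : Submodule F V} (hG : Gd Φ.TI e M y A) :
    LinearMap.ker (nz (ZZ y e)) ⊓ perp Φ A = A := by
  set Z := ZZ y e with hZ
  have hc : ((Nat.card Z : ℕ) : F) ≠ 0 := card_ne_zero hΦ.2.1
  have hAP : A ≤ LinearMap.ker (nz Z) ⊓ perp Φ A := le_inf (le_ker hM hG.big hG.irr) fun a ha b hb => hG.ts.1 a ha b hb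
  by_contra hne
  have hlt : A < LinearMap.ker (nz Z) ⊓ perp Φ A := lt_of_le_of_ne hAP (Ne.symm hne)
  obtain ⟨B, hB, hAB, hBP, hmin⟩ := exists_min (y := y)
    (P := LinearMap.ker (nz Z) ⊓ perp Φ A) (fun v hv => ⟨inv_ker v hv.1, inv_perp hy hG.irr.inv v hv.2⟩)
    hG.irr.inv hlt
  have hnt : ∃ z ∈ Z, ∃ b ∈ B, z b - b ∉ A := by
    by_contra hcon
    push Not at hcon
    apply hAB.not_ge
    intro b hb
    have h1 := nz_sub_mem Z (W := A) (v := b) fun z hz => hcon z hz b hb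
    have h2 : nz Z b = 0 := (hBP hb).1
    rw [h2, zero_sub, neg_mem_iff] at h1
    have h3 := A.smul_mem ((Nat.card Z : ℕ) : F)⁻¹ h1
    rwa [smul_smul, inv_mul_cancel₀ hc, one_smul] at h3
  obtain ⟨z, hz, b, hb, hzb⟩ := hnt
  obtain ⟨k, rfl⟩ := exists_pow hz.1
  set Q := qs hG.irr.inv hB with hQ
  have hi : Irr Q ⊤ := irr_qs hG.irr.inv hB hAB hmin
  have hQk : Q ^ k ≠ 1 := by
    intro h
    apply hzb
    have h1 : (Q ^ k) (Submodule.Quotient.mk ⟨b, hb⟩ : QQ A B) = Submodule.Quotient.mk ⟨b, hb⟩ := by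
      rw [h]; rfl
    rw [hQ, qs_pow, Submodule.Quotient.eq] at h1
    have h2 : (((rs y B hB ^ k) ⟨b, hb⟩ : B) : V) - b ∈ A := h1
    rwa [rs_pow] at h2
  obtain ⟨r, hr, hrd⟩ := Nat.exists_prime_and_dvd (fun h => hQk (orderOf_eq_one_iff.1 h))
  have hdz : orderOf (Q ^ k) ∣ orderOf (y ^ k) := by
    rw [orderOf_dvd_iff_pow_eq_one, ← pow_mul]
    ext x
    obtain ⟨c, rfl⟩ := Submodule.Quotient.mk_surjective _ x
    rw [hQ, qs_pow]
    congr 1
    apply Subtype.ext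
    rw [rs_pow, pow_mul, pow_orderOf_eq_one]
    rfl
  have hre := hz.2 r hr (hrd.trans hdz)
  have hdQ : r ∣ orderOf Q := hrd.trans (orderOf_pow_dvd k)
  have h1 := (h24 F (QQ A B) e r Q (Q ^ k) hΦ.2.1 hi (Subgroup.npow_mem_zpowers Q k) hr hrd hre).1
  have h2 := quot_zero h10 hΦ hy hG.irr.inv hB (fun a ha b hb => Φ.refl _ _ ((hBP hb).2 a ha)) hi hr hdQ hre
  obtain ⟨S, hSB, hS, hSd⟩ := exists_sing hΦ h2
  have hfr := finrank_QQ (F := F) hAB.le
  have hlt' := Submodule.finrank_lt_finrank_of_lt hAB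
  have hdim := hG.dim
  have he := hΦ.2.1
  rcases hmin S (fun v hv => (hS _).2 ⟨hB v (hSB hv), by rw [hy.2]; exact ((hS v).1 hv).2⟩)
    (fun a ha => (hS a).2 ⟨hAB.le ha, hG.ts.2 a ha⟩) hSB with h3 | h3
  · have h4 : finrank F (QQ A B) ≤ 1 := by rw [h3] at hSd; omega
    have h5 := Nat.le_of_dvd (by omega) h1
    omega
  · refine hG.no B ⟨h2, fun x hx => ((hS x).1 (h3 ▸ hx)).2⟩ hB hAB hmin ?_
    rw [← hfr, hdim]
    exact Dvd.dvd.add h1 (dvd_refl e)

/-- `z ≠ 1` in `Z` is irreducible without fixed vectors on `A` -/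
theorem irr_A (h24 : L24) {e : ℕ} (he : 2 ≤ e) {y z : V ≃ₗ[F] V} (hz : z ∈ ZZ y e) {A : Submodule F V}
    (hi : Irr y A) (hd : finrank F A = e) (hne : ∃ a ∈ A, z a ≠ a) :
    (∀ W ≤ A, Inv z W → W = ⊥ ∨ W = A) ∧ ∀ a ∈ A, z a = a → a = 0 := by
  obtain ⟨k, rfl⟩ := exists_pow hz.1
  obtain ⟨a, ha, hza⟩ := hne
  have hk1 : rs y A hi.inv ^ k ≠ 1 := by
    intro h
    apply hza
    have h1 := rs_pow hi.inv k ⟨a, ha⟩
    rw [h] at h1
    exact h1.symm
  obtain ⟨r, hr, hrd⟩ := Nat.exists_prime_and_dvd (fun h => hk1 (orderOf_eq_one_iff.1 h))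
  have hdz : orderOf (rs y A hi.inv ^ k) ∣ orderOf (y ^ k) := by
    rw [orderOf_dvd_iff_pow_eq_one, ← pow_mul]
    ext c
    rw [rs_pow, pow_mul, pow_orderOf_eq_one]
    rfl
  have hre := hz.2 r hr (hrd.trans hdz)
  obtain ⟨-, h2, h3⟩ := h24 F A e r (rs y A hi.inv) (rs y A hi.inv ^ k) he (irr_rs hi)
    (Subgroup.npow_mem_zpowers _ k) hr hrd hre
  refine ⟨min_of_irr (rs_pow hi.inv k) (h2 hd), fun a ha hza => ?_⟩
  exact congrArg Subtype.val (h3 ⟨a, ha⟩ (Subtype.ext ((rs_pow hi.inv k _).trans hza)))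

/-- **RG-L14** -/
theorem l14 (h10 : L10) (h24 : L24) : L14 := by
  intro F V _ _ _ _ _ Φ e M hΦ hM y hy A hG
  have hN := hΦ.1
  have he := hΦ.2.1
  have hdim := hG.dim
  have hI : ZZ y e ≤ Φ.Iso := fun z hz => by
    obtain ⟨k, rfl⟩ := exists_pow hz.1
    exact pow_mem hy k
  have hc : ((Nat.card (ZZ y e) : ℕ) : F) ≠ 0 := card_ne_zero he
  have hcard := (card_ZZ hM hG.big).1
  have hms := main_step h10 h24 hΦ hM hy hG
  set Z := ZZ y e with hZ
  set C := fx Z with hC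
  set D := LinearMap.ker (nz Z) with hD
  have hCD : IsCompl C D := compl Z hc
  have hort : ∀ c ∈ C, ∀ d ∈ D, Φ.B c d = 0 := fun c hc' d hd => orth Z hI hc hc' hd
  have hort' : ∀ c ∈ C, ∀ d ∈ D, Φ.B d c = 0 := fun c hc' d hd => Φ.refl _ _ (hort c hc' d hd)
  have hAD : A ≤ D := le_ker hM hG.big hG.irr
  have hZA : ∀ z ∈ Z, Inv z A := fun z hz => inv_of_mem hz hG.irr.inv
  have hZD : ∀ z ∈ Z, Inv z D := fun z hz => inv_of_mem hz inv_ker
  have hsplit : ∀ v : V, ∃ c ∈ C, ∃ d ∈ D, v = c + d := fun v => by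
    obtain ⟨c, hc', d, hd, h⟩ := Submodule.mem_sup.1 (hCD.sup_eq_top ▸ Submodule.mem_top (x := v))
    exact ⟨c, hc', d, hd, h.symm⟩
  -- perp A
  have hperp : perp Φ A = A ⊔ C := by
    apply le_antisymm
    · intro v hv
      obtain ⟨c, hc', d, hd, rfl⟩ := hsplit v
      have h1 : d ∈ A := by
        rw [← hms]
        refine ⟨hd, fun a ha => ?_⟩
        have h2 := hv a ha
        rwa [Φ.add_left, hort c hc' a (hAD ha), zero_add] at h2
      rw [add_comm]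
      exact Submodule.add_mem_sup h1 hc'
    · exact sup_le (fun a ha b hb => hG.ts.1 a ha b hb) fun c hc' a ha => hort c hc' a (hAD ha)
  obtain ⟨A', hA'D, hZA', hdis, hsup⟩ := exists_compl Z hc hZA hZD hAD
  -- dimensions
  have hd1 := finrank_perp (Φ := Φ) hN A
  have hd2 : finrank F ↥(A ⊔ C) = finrank F A + finrank F C := by
    have h1 := Submodule.finrank_sup_add_finrank_inf_eq A C
    have h2 : A ⊓ C = ⊥ := (hCD.disjoint.symm.mono_left hAD).eq_bot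
    rw [h2, finrank_bot] at h1
    omega
  have hd3 := Submodule.finrank_add_eq_of_isCompl hCD
  have hd4 : finrank F D = finrank F A + finrank F A' := by
    have h1 := Submodule.finrank_sup_add_finrank_inf_eq A A'
    rw [hdis.eq_bot, finrank_bot, hsup] at h1
    omega
  have hdA' : finrank F A' = e := by
    rw [hperp, hd2] at hd1
    omega
  -- pairing of A and A'
  have hp1 : ∀ a ∈ A, (∀ a' ∈ A', Φ.B a a' = 0) → a = 0 := by
    intro a ha h
    refine hN a fun v => ?_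
    obtain ⟨c, hc', d, hd, rfl⟩ := hsplit v
    rw [← hsup] at hd
    obtain ⟨b, hb, a', ha', rfl⟩ := Submodule.mem_sup.1 hd
    rw [Φ.add_right, Φ.add_right, hort' c hc' a (hAD ha), hG.ts.1 a ha b hb, h a' ha', add_zero, add_zero]
  have hp2 : ∀ a' ∈ A', (∀ a ∈ A, Φ.B a' a = 0) → a' = 0 := by
    intro a' ha' h
    have h1 : a' ∈ A := by
      rw [← hms]
      exact ⟨hA'D ha', h⟩
    exact (Submodule.disjoint_def.1 hdis) a' h1 ha'
  -- nontrivial on A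
  have hntA : ∀ z ∈ Z, z ≠ 1 → ∃ a ∈ A, z a ≠ a := by
    intro z hz hz1
    by_contra hcon
    push Not at hcon
    apply hz1
    have h1 : ∀ a' ∈ A', z a' = a' := by
      intro a' ha'
      rw [← sub_eq_zero]
      refine hp2 _ (A'.sub_mem (hZA' z hz a' ha') ha') fun a ha => ?_
      have h2 : Φ.B (z a') a = Φ.B a' a := by
        conv_lhs => rw [← hcon a ha]
        exact (hI hz).1 _ _
      have h3 : z a' = (z a' - a') + a' := by abel
      have h4 : Φ.B (z a') a = Φ.B (z a' - a') a + Φ.B a' a := by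
        conv_lhs => rw [h3]
        exact Φ.add_left _ _ _
      rw [h2] at h4
      exact add_eq_right.1 h4.symm
    ext v
    obtain ⟨c, hc', d, hd, rfl⟩ := hsplit v
    rw [← hsup] at hd
    obtain ⟨b, hb, a', ha', rfl⟩ := Submodule.mem_sup.1 hd
    rw [map_add, map_add, hc' z hz, hcon b hb, h1 a' ha']
    rfl
  have hiA : ∀ z ∈ Z, z ≠ 1 → (∀ W ≤ A, Inv z W → W = ⊥ ∨ W = A) ∧ ∀ a ∈ A, z a = a → a = 0 :=
    fun z hz hz1 => irr_A h24 he hz hG.irr hdim (hntA z hz hz1)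
  have hminA' : ∀ z ∈ Z, z ≠ 1 → ∀ W ≤ A', Inv z W → W = ⊥ ∨ W = A' := by
    intro z hz hz1 W hW hWz
    rcases (hiA z hz hz1).1 (perp Φ W ⊓ A) inf_le_right
      (fun v hv => ⟨inv_perp (hI hz) hWz v hv.1, hZA z hz v hv.2⟩) with h | h
    · right
      apply Submodule.eq_of_le_of_finrank_le hW
      have h1 := finrank_perp (Φ := Φ) hN W
      have h2 := Submodule.finrank_sup_add_finrank_inf_eq (perp Φ W) A
      rw [h, finrank_bot] at h2
      have h3 := Submodule.finrank_le (perp Φ W ⊔ A)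
      omega
    · left
      rw [Submodule.eq_bot_iff]
      intro w hw
      refine hp2 w (hW hw) fun a ha => ?_
      have h1 : a ∈ perp Φ W ⊓ A := by rw [h]; exact ha
      exact Φ.refl _ _ (h1.1 w hw)
  have hfixA' : ∀ z ∈ Z, z ≠ 1 → ∀ a' ∈ A', z a' = a' → a' = 0 := by
    intro z hz hz1
    let W : Submodule F V :=
      { carrier := {v | v ∈ A' ∧ z v = v}
        add_mem' := fun {v w} hv hw => ⟨add_mem hv.1 hw.1, by rw [map_add, hv.2, hw.2]⟩
        zero_mem' := ⟨zero_mem _, map_zero z⟩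
        smul_mem' := fun c v hv => ⟨A'.smul_mem c hv.1, by rw [map_smul, hv.2]⟩ }
    rcases hminA' z hz hz1 W (fun v hv => hv.1) (fun v hv => by rw [hv.2]; exact hv) with h | h
    · intro a' ha' hza
      have h1 : a' ∈ W := ⟨ha', hza⟩
      rwa [h, Submodule.mem_bot] at h1
    · exfalso
      obtain ⟨a, ha, hza⟩ := hntA z hz hz1
      apply hza
      rw [← sub_eq_zero]
      refine hp1 _ (A.sub_mem (hZA z hz a ha) ha) fun a' ha' => ?_
      have h0 : a' ∈ W := by rw [h]; exact ha'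
      have h2 : Φ.B (z a) a' = Φ.B a a' := by
        conv_lhs => rw [← h0.2]
        exact (hI hz).1 _ _
      have h3 : z a = (z a - a) + a := by abel
      have h4 : Φ.B (z a) a' = Φ.B (z a - a) a' + Φ.B a a' := by
        conv_lhs => rw [h3]
        exact Φ.add_left _ _ _
      rw [h2] at h4
      exact add_eq_right.1 h4.symm
  -- A' is totally isotropic
  have hfin := finite_gl F V
  obtain ⟨z₀, hz₀⟩ : ∃ z : Z, z ≠ 1 := by
    have : Nontrivial Z := by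
      rw [← Finite.one_lt_card_iff_nontrivial]
      omega
    exact exists_ne 1
  have hz₀1 : (z₀ : V ≃ₗ[F] V) ≠ 1 := fun h => hz₀ (Subtype.ext h)
  have hA'0 : A' ≠ ⊥ := by
    rintro rfl
    rw [finrank_bot] at hdA'
    omega
  have hirr : Irr (z₀ : V ≃ₗ[F] V) A' := ⟨hZA' z₀ z₀.2, hA'0, hminA' z₀ z₀.2 hz₀1⟩
  obtain ⟨r, hr, hrd, hre⟩ : ∃ r : ℕ, r.Prime ∧ r ∣ orderOf (rs (z₀ : V ≃ₗ[F] V) A' hirr.inv) ∧
      orderOf ((Nat.card F : ℕ) : ZMod r) = e := by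
    have h1 : rs (z₀ : V ≃ₗ[F] V) A' hirr.inv ≠ 1 := by
      intro h
      apply hA'0
      rw [Submodule.eq_bot_iff]
      intro a' ha'
      refine hfixA' z₀ z₀.2 hz₀1 a' ha' ?_
      have h2 := rs_apply hirr.inv ⟨a', ha'⟩
      rw [h] at h2
      exact h2.symm
    obtain ⟨r, hr, hrd⟩ := Nat.exists_prime_and_dvd (fun h => h1 (orderOf_eq_one_iff.1 h))
    refine ⟨r, hr, hrd, z₀.2.2 r hr (hrd.trans ?_)⟩
    rw [orderOf_dvd_iff_pow_eq_one]
    ext c
    rw [rs_pow, pow_orderOf_eq_one]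
    rfl
  have hB0 := self_zero h10 hΦ (hI z₀.2) hirr hr hrd hre
  have hti : Φ.TI A' := by
    obtain ⟨S, hSA, hS, hSd⟩ := exists_sing hΦ hB0
    refine ⟨hB0, ?_⟩
    rcases hirr.min S hSA (fun v hv => (hS _).2 ⟨hirr.inv v (hSA hv), by
      rw [(hI z₀.2).2]; exact ((hS v).1 hv).2⟩) with h | h
    · rw [h, finrank_bot] at hSd
      omega
    · intro x hx
      exact ((hS x).1 (h ▸ hx)).2
  refine ⟨Z, A', C, fun z hz => hz.1, hcard, ⟨hG.ts, hti, hdim.trans hdA'.symm, hdis, ?_, hperp, ?_⟩,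
    fun z hz => ⟨fun c hc' => hc' z hz, hZA z hz, hZA' z hz⟩, fun z hz hz1 => ⟨(hiA z hz hz1).1, (hiA z hz hz1).2,
      hminA' z hz hz1, hfixA' z hz hz1, ?_⟩⟩
  · rw [hsup]
    exact hCD.symm
  · apply le_antisymm
    · intro v hv
      obtain ⟨c, hc', d, hd, rfl⟩ := hsplit v
      rw [← hsup] at hd
      obtain ⟨b, hb, a', ha', rfl⟩ := Submodule.mem_sup.1 hd
      have h1 : b = 0 := by
        refine hp1 b hb fun w hw => ?_
        have h2 := hv w hw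
        rwa [Φ.add_left, Φ.add_left, hort c hc' w (hA'D hw), hB0 a' ha' w hw, zero_add, add_zero] at h2
      rw [h1, zero_add, add_comm]
      exact Submodule.add_mem_sup ha' hc'
    · exact sup_le (fun a ha b hb => hti.1 a ha b hb) fun c hc' a ha => hort c hc' a (hA'D ha)
  · obtain ⟨r, hr, hrd⟩ := Nat.exists_prime_and_dvd (fun h => hz1 (orderOf_eq_one_iff.1 h))
    exact ⟨r, hr, hrd, hz.2 r hr hrd⟩

end Cfsg.Agent.H343.RG
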